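import Mathlib
import Cfsg.Agent.Lib.Helper27.Zass.T1Defs

set_option autoImplicit false
set_option linter.unusedSimpArgs false
set_option linter.unusedSectionVars false

/-!
# ZASS, package [T1-R] (second seat): the ring part of (T1) with four spanning elements.

With `s = -(2W+1)`, `u₁ = 3 s_a + κ s`, `u₂ = 3 s_b + κ' s`, `N = s u₁`, `c = u₁u₂ + u₂u₁`,
`d = N u₂ + u₂ N` one has `144 u₂ = -3 c u₁ - d N`, and `c, d` commute with `s, u₁, u₂`.
So `Z + Z s + Z u₁ + Z N` (`Z = adjoin {c, d}`) is stable under `W, A, B`.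
-/

namespace Cfsg.Agent.Lib.Helper12.Zass

section core

variable {F R : Type*} [Field F] [Ring R] [Algebra F R]

/-- the `Z`-span of `1, s, u, N` -/
def Mset (Z : Subalgebra F R) (s u N : R) : Set R :=
  {x | ∃ c0 ∈ Z, ∃ c1 ∈ Z, ∃ c2 ∈ Z, ∃ c3 ∈ Z, x = c0 + c1 * s + c2 * u + c3 * N}

variable {Z : Subalgebra F R} {s u N : R}

theorem Mset.add {x y : R} (hx : x ∈ Mset Z s u N) (hy : y ∈ Mset Z s u N) :
    x + y ∈ Mset Z s u N := by
  obtain ⟨a0, ha0, a1, ha1, a2, ha2, a3, ha3, rfl⟩ := hx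
  obtain ⟨b0, hb0, b1, hb1, b2, hb2, b3, hb3, rfl⟩ := hy
  refine ⟨a0 + b0, Z.add_mem ha0 hb0, a1 + b1, Z.add_mem ha1 hb1, a2 + b2, Z.add_mem ha2 hb2,
    a3 + b3, Z.add_mem ha3 hb3, ?_⟩
  simp only [add_mul]; abel

theorem Mset.zmul {z x : R} (hz : z ∈ Z) (hx : x ∈ Mset Z s u N) : z * x ∈ Mset Z s u N := by
  obtain ⟨a0, ha0, a1, ha1, a2, ha2, a3, ha3, rfl⟩ := hx
  refine ⟨z * a0, Z.mul_mem hz ha0, z * a1, Z.mul_mem hz ha1, z * a2, Z.mul_mem hz ha2,
    z * a3, Z.mul_mem hz ha3, ?_⟩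
  simp only [mul_add, mul_assoc]

theorem Mset.smul (a : F) {x : R} (hx : x ∈ Mset Z s u N) : a • x ∈ Mset Z s u N := by
  have : a • x = algebraMap F R a * x := by rw [Algebra.smul_def]
  rw [this]
  exact Mset.zmul (Z.algebraMap_mem a) hx

theorem Mset.neg {x : R} (hx : x ∈ Mset Z s u N) : -x ∈ Mset Z s u N := by
  have : -x = (-1 : F) • x := by simp
  rw [this]; exact Mset.smul _ hx

theorem Mset.sub {x y : R} (hx : x ∈ Mset Z s u N) (hy : y ∈ Mset Z s u N) :
    x - y ∈ Mset Z s u N := by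
  rw [sub_eq_add_neg]; exact Mset.add hx (Mset.neg hy)

/-- closure under left multiplication by an element acting on `1, s, u, N` through `M` and
commuting with `Z` -/
theorem Mset.lmul {g x : R} (hgZ : ∀ z ∈ Z, z * g = g * z)
    (h1 : g ∈ Mset Z s u N) (hs : g * s ∈ Mset Z s u N) (hu : g * u ∈ Mset Z s u N)
    (hN : g * N ∈ Mset Z s u N) (hx : x ∈ Mset Z s u N) : g * x ∈ Mset Z s u N := by
  obtain ⟨a0, ha0, a1, ha1, a2, ha2, a3, ha3, rfl⟩ := hx
  have e : g * (a0 + a1 * s + a2 * u + a3 * N)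
      = a0 * g + a1 * (g * s) + a2 * (g * u) + a3 * (g * N) := by
    simp only [mul_add, ← mul_assoc, ← hgZ a0 ha0, ← hgZ a1 ha1, ← hgZ a2 ha2, ← hgZ a3 ha3]
  rw [e]
  exact Mset.add (Mset.add (Mset.add (Mset.zmul ha0 h1) (Mset.zmul ha1 hs)) (Mset.zmul ha2 hu))
    (Mset.zmul ha3 hN)

theorem Mset.of_one : (1 : R) ∈ Mset Z s u N :=
  ⟨1, Z.one_mem, 0, Z.zero_mem, 0, Z.zero_mem, 0, Z.zero_mem, by simp⟩
theorem Mset.of_s : s ∈ Mset Z s u N :=
  ⟨0, Z.zero_mem, 1, Z.one_mem, 0, Z.zero_mem, 0, Z.zero_mem, by simp⟩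
theorem Mset.of_u : u ∈ Mset Z s u N :=
  ⟨0, Z.zero_mem, 0, Z.zero_mem, 1, Z.one_mem, 0, Z.zero_mem, by simp⟩
theorem Mset.of_N : N ∈ Mset Z s u N :=
  ⟨0, Z.zero_mem, 0, Z.zero_mem, 0, Z.zero_mem, 1, Z.one_mem, by simp⟩
theorem Mset.of_zero : (0 : R) ∈ Mset Z s u N :=
  ⟨0, Z.zero_mem, 0, Z.zero_mem, 0, Z.zero_mem, 0, Z.zero_mem, by simp⟩


/-- from the line condition to the scalar anticommutator of `-(2X+1)` and `-(2Y+1)` -/
theorem anticomm_of_line {X Y : R} (_hX : X * X + X + 1 = 0) (_hY : Y * Y + Y + 1 = 0)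
    (h : X * Y + Y * X + Y + X = 0 ∨ X * Y + Y * X + Y + X = -1) :
    ∃ k : F, k * k = 1 ∧
      (-(X + X + 1)) * (-(Y + Y + 1)) + (-(Y + Y + 1)) * (-(X + X + 1)) = (2 * k) • (1 : R) := by
  have e : (-(X + X + 1)) * (-(Y + Y + 1)) + (-(Y + Y + 1)) * (-(X + X + 1))
      = (4 : F) • (X * Y + Y * X + Y + X) + (2 : F) • (1 : R) := by
    simp only [mul_add, add_mul, mul_neg, neg_mul, neg_neg, mul_one, one_mul]
    module
  rcases h with h | h
  · exact ⟨1, by ring, by rw [e, h]; module⟩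
  · exact ⟨-1, by ring, by rw [e, h]; module⟩

theorem sq_of_root {X : R} (hX : X * X + X + 1 = 0) :
    (-(X + X + 1)) * (-(X + X + 1)) = (-3 : F) • (1 : R) := by
  have hXX : X * X = -X - 1 := by
    have : X * X = (X * X + X + 1) - X - 1 := by abel
    rw [this, hX]; abel
  simp only [mul_add, add_mul, mul_neg, neg_mul, neg_neg, mul_one, one_mul, hXX]
  module

/-- **[T1-R], core form over any field with `2, 3 ≠ 0`.** -/
theorem t1r_core (h2 : (2 : F) ≠ 0) (h3 : (3 : F) ≠ 0) (W A B : R)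
    (hW : W * W + W + 1 = 0) (hA : A * A + A + 1 = 0) (hB : B * B + B + 1 = 0)
    (hka : W * A + A * W + A + W = 0 ∨ W * A + A * W + A + W = -1)
    (hkb : W * B + B * W + B + W = 0 ∨ W * B + B * W + B + W = -1) :
    ∃ (Z : Subalgebra F R) (r : Fin 8 → R),
        (∀ z ∈ Z, ∀ z' ∈ Z, z * z' = z' * z) ∧
        (∀ z ∈ Z, z * W = W * z ∧ z * A = A * z ∧ z * B = B * z) ∧
        (∀ i, r i ∈ Algebra.adjoin F ({W, A, B} : Set R)) ∧
        (∃ c : Fin 8 → R, (∀ i, c i ∈ Z) ∧ (1 : R) = ∑ i, c i * r i) ∧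
        (∀ T ∈ ({W, A, B} : Set R), ∀ j, ∃ c : Fin 8 → R, (∀ i, c i ∈ Z) ∧
          T * r j = ∑ i, c i * r i) := by
  obtain ⟨s, hs⟩ : ∃ s : R, s = -(W + W + 1) := ⟨_, rfl⟩
  obtain ⟨t, ht⟩ : ∃ t : R, t = -(A + A + 1) := ⟨_, rfl⟩
  obtain ⟨t', ht'⟩ : ∃ t' : R, t' = -(B + B + 1) := ⟨_, rfl⟩
  obtain ⟨ka, hkka, hsta⟩ := anticomm_of_line (F := F) hW hA hka
  obtain ⟨kb, hkkb, hstb⟩ := anticomm_of_line (F := F) hW hB hkb
  rw [← hs, ← ht] at hsta
  rw [← hs, ← ht'] at hstb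
  have r_ss : s * s = (-3 : F) • (1 : R) := by rw [hs]; exact sq_of_root hW
  have r_tt : t * t = (-3 : F) • (1 : R) := by rw [ht]; exact sq_of_root hA
  have r_tt' : t' * t' = (-3 : F) • (1 : R) := by rw [ht']; exact sq_of_root hB
  have hts : t * s = (2 * ka) • (1 : R) - s * t := by rw [← hsta]; abel
  have hts' : t' * s = (2 * kb) • (1 : R) - s * t' := by rw [← hstb]; abel
  obtain ⟨u1, hu1⟩ : ∃ u1 : R, u1 = (3 : F) • t + ka • s := ⟨_, rfl⟩
  obtain ⟨u2, hu2⟩ : ∃ u2 : R, u2 = (3 : F) • t' + kb • s := ⟨_, rfl⟩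
  -- anticommutation and squares
  have r_u1s : u1 * s = -(s * u1) := by
    rw [hu1]
    simp only [mul_add, add_mul, smul_mul_assoc, mul_smul_comm, r_ss, hts]
    module
  have r_u2s : u2 * s = -(s * u2) := by
    rw [hu2]
    simp only [mul_add, add_mul, smul_mul_assoc, mul_smul_comm, r_ss, hts']
    module
  have r_u1u1 : u1 * u1 = (-24 : F) • (1 : R) := by
    have : u1 * u1 = (-27 + 3 * (ka * ka)) • (1 : R) := by
      rw [hu1]
      simp only [mul_add, add_mul, smul_mul_assoc, mul_smul_comm, r_ss, r_tt, hts]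
      module
    rw [this, hkka]; norm_num
  have r_u2u2 : u2 * u2 = (-24 : F) • (1 : R) := by
    have : u2 * u2 = (-27 + 3 * (kb * kb)) • (1 : R) := by
      rw [hu2]
      simp only [mul_add, add_mul, smul_mul_assoc, mul_smul_comm, r_ss, r_tt', hts']
      module
    rw [this, hkkb]; norm_num
  have r_ss' : ∀ x : R, s * (s * x) = (-3 : F) • x := by
    intro x; rw [← mul_assoc, r_ss, smul_mul_assoc, one_mul]
  have r_u1u1' : ∀ x : R, u1 * (u1 * x) = (-24 : F) • x := by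
    intro x; rw [← mul_assoc, r_u1u1, smul_mul_assoc, one_mul]
  have r_u2u2' : ∀ x : R, u2 * (u2 * x) = (-24 : F) • x := by
    intro x; rw [← mul_assoc, r_u2u2, smul_mul_assoc, one_mul]
  have r_u1s' : ∀ x : R, u1 * (s * x) = -(s * (u1 * x)) := by
    intro x; rw [← mul_assoc, r_u1s, neg_mul, mul_assoc]
  have r_u2s' : ∀ x : R, u2 * (s * x) = -(s * (u2 * x)) := by
    intro x; rw [← mul_assoc, r_u2s, neg_mul, mul_assoc]
  obtain ⟨N, hN⟩ : ∃ N : R, N = s * u1 := ⟨_, rfl⟩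
  obtain ⟨c, hc⟩ : ∃ c : R, c = u1 * u2 + u2 * u1 := ⟨_, rfl⟩
  obtain ⟨d, hd⟩ : ∃ d : R, d = N * u2 + u2 * N := ⟨_, rfl⟩
  -- commutation of `c`, `d`
  have c_s : c * s = s * c := by
    rw [hc]
    simp only [mul_add, add_mul, mul_sub, sub_mul, mul_neg, neg_mul, neg_neg, mul_one, one_mul,
      smul_mul_assoc, mul_smul_comm, mul_assoc, r_ss, r_ss', r_u1u1, r_u1u1', r_u2u2, r_u2u2',
      r_u1s, r_u1s', r_u2s, r_u2s']
  have c_u1 : c * u1 = u1 * c := by
    rw [hc]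
    simp only [mul_add, add_mul, mul_sub, sub_mul, mul_neg, neg_mul, neg_neg, mul_one, one_mul,
      smul_mul_assoc, mul_smul_comm, mul_assoc, r_ss, r_ss', r_u1u1, r_u1u1', r_u2u2, r_u2u2',
      r_u1s, r_u1s', r_u2s, r_u2s']
    module
  have c_u2 : c * u2 = u2 * c := by
    rw [hc]
    simp only [mul_add, add_mul, mul_sub, sub_mul, mul_neg, neg_mul, neg_neg, mul_one, one_mul,
      smul_mul_assoc, mul_smul_comm, mul_assoc, r_ss, r_ss', r_u1u1, r_u1u1', r_u2u2, r_u2u2',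
      r_u1s, r_u1s', r_u2s, r_u2s']
    module
  have d_s : d * s = s * d := by
    rw [hd, hN]
    simp only [mul_add, add_mul, mul_sub, sub_mul, mul_neg, neg_mul, neg_neg, mul_one, one_mul,
      smul_mul_assoc, mul_smul_comm, mul_assoc, r_ss, r_ss', r_u1u1, r_u1u1', r_u2u2, r_u2u2',
      r_u1s, r_u1s', r_u2s, r_u2s']
  have d_u1 : d * u1 = u1 * d := by
    rw [hd, hN]
    simp only [mul_add, add_mul, mul_sub, sub_mul, mul_neg, neg_mul, neg_neg, mul_one, one_mul,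
      smul_mul_assoc, mul_smul_comm, mul_assoc, r_ss, r_ss', r_u1u1, r_u1u1', r_u2u2, r_u2u2',
      r_u1s, r_u1s', r_u2s, r_u2s']
    module
  have d_u2 : d * u2 = u2 * d := by
    rw [hd, hN]
    simp only [mul_add, add_mul, mul_sub, sub_mul, mul_neg, neg_mul, neg_neg, mul_one, one_mul,
      smul_mul_assoc, mul_smul_comm, mul_assoc, r_ss, r_ss', r_u1u1, r_u1u1', r_u2u2, r_u2u2',
      r_u1s, r_u1s', r_u2s, r_u2s']
    module
  have d_N : d * N = N * d := by
    rw [hN, mul_assoc, ← d_u1, ← mul_assoc, d_s, mul_assoc]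
  have c_N : c * N = N * c := by
    rw [hN, mul_assoc, ← c_u1, ← mul_assoc, c_s, mul_assoc]
  have c_d : c * d = d * c := by
    rw [hc, add_mul, mul_add, mul_assoc, mul_assoc, ← d_u2, ← d_u1, ← mul_assoc, ← mul_assoc,
      ← d_u1, ← d_u2, mul_assoc, mul_assoc]
  -- the key identity
  have key : (144 : F) • u2 = -((3 : F) • (c * u1)) - d * N := by
    rw [hd, hc, hN]
    simp only [mul_add, add_mul, mul_sub, sub_mul, mul_neg, neg_mul, neg_neg, mul_one, one_mul,
      smul_mul_assoc, mul_smul_comm, mul_assoc, r_ss, r_ss', r_u1u1, r_u1u1', r_u2u2, r_u2u2',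
      r_u1s, r_u1s', r_u2s, r_u2s']
    module
  -- the multiplication table of `1, s, u1, N`
  have r_sN : s * N = (-3 : F) • u1 := by rw [hN, r_ss']
  have r_u1N : u1 * N = (24 : F) • s := by
    rw [hN]
    simp only [mul_add, add_mul, mul_sub, sub_mul, mul_neg, neg_mul, neg_neg, mul_one, one_mul,
      smul_mul_assoc, mul_smul_comm, mul_assoc, r_ss, r_ss', r_u1u1, r_u1u1', r_u2u2, r_u2u2',
      r_u1s, r_u1s', r_u2s, r_u2s']
    module
  have r_Ns : N * s = (3 : F) • u1 := by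
    rw [hN]
    simp only [mul_add, add_mul, mul_sub, sub_mul, mul_neg, neg_mul, neg_neg, mul_one, one_mul,
      smul_mul_assoc, mul_smul_comm, mul_assoc, r_ss, r_ss', r_u1u1, r_u1u1', r_u2u2, r_u2u2',
      r_u1s, r_u1s', r_u2s, r_u2s']
    module
  have r_Nu1 : N * u1 = (-24 : F) • s := by
    rw [hN]
    simp only [mul_add, add_mul, mul_sub, sub_mul, mul_neg, neg_mul, neg_neg, mul_one, one_mul,
      smul_mul_assoc, mul_smul_comm, mul_assoc, r_ss, r_ss', r_u1u1, r_u1u1', r_u2u2, r_u2u2',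
      r_u1s, r_u1s', r_u2s, r_u2s']
  have r_NN : N * N = (-72 : F) • (1 : R) := by
    rw [hN]
    simp only [mul_add, add_mul, mul_sub, sub_mul, mul_neg, neg_mul, neg_neg, mul_one, one_mul,
      smul_mul_assoc, mul_smul_comm, mul_assoc, r_ss, r_ss', r_u1u1, r_u1u1', r_u2u2, r_u2u2',
      r_u1s, r_u1s', r_u2s, r_u2s']
    module
  -- the commutative subalgebra
  let Z : Subalgebra F R := Algebra.adjoin F {c, d}
  have hcZ : c ∈ Z := Algebra.subset_adjoin (by simp)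
  have hdZ : d ∈ Z := Algebra.subset_adjoin (by simp)
  have comm_of : ∀ g : R, g * c = c * g → g * d = d * g → ∀ z ∈ Z, z * g = g * z := by
    intro g hgc hgd z hz
    have : Commute g z := Algebra.commute_of_mem_adjoin_of_forall_mem_commute hz (by
      intro b hb
      rcases hb with rfl | rfl
      · exact hgc
      · exact hgd)
    exact this.eq.symm
  have hZc : ∀ z ∈ Z, z * c = c * z := comm_of c rfl c_d
  have hZd : ∀ z ∈ Z, z * d = d * z := comm_of d c_d.symm rfl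
  have hZZ : ∀ z ∈ Z, ∀ z' ∈ Z, z * z' = z' * z := by
    intro z hz z' hz'
    exact (comm_of z (hZc z hz) (hZd z hz) z' hz').symm
  have hZs : ∀ z ∈ Z, z * s = s * z := comm_of s c_s.symm d_s.symm
  have hZu1 : ∀ z ∈ Z, z * u1 = u1 * z := comm_of u1 c_u1.symm d_u1.symm
  have hZu2 : ∀ z ∈ Z, z * u2 = u2 * z := comm_of u2 c_u2.symm d_u2.symm
  have hZN : ∀ z ∈ Z, z * N = N * z := comm_of N c_N.symm d_N.symm
  -- `W, A, B` in terms of `s, u1, u2`
  have eW : W = (2 : F)⁻¹ • (-(1 + s)) := by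
    have : -(1 + s) = (2 : F) • W := by rw [hs]; module
    rw [this, smul_smul, inv_mul_cancel₀ h2, one_smul]
  have et : t = (3 : F)⁻¹ • (u1 - ka • s) := by
    have : u1 - ka • s = (3 : F) • t := by rw [hu1]; module
    rw [this, smul_smul, inv_mul_cancel₀ h3, one_smul]
  have et' : t' = (3 : F)⁻¹ • (u2 - kb • s) := by
    have : u2 - kb • s = (3 : F) • t' := by rw [hu2]; module
    rw [this, smul_smul, inv_mul_cancel₀ h3, one_smul]
  have eA : A = (2 : F)⁻¹ • (-(1 + t)) := by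
    have : -(1 + t) = (2 : F) • A := by rw [ht]; module
    rw [this, smul_smul, inv_mul_cancel₀ h2, one_smul]
  have eB : B = (2 : F)⁻¹ • (-(1 + t')) := by
    have : -(1 + t') = (2 : F) • B := by rw [ht']; module
    rw [this, smul_smul, inv_mul_cancel₀ h2, one_smul]
  have h144 : (144 : F) ≠ 0 := by
    have : (144 : F) = 2 * 2 * 2 * 2 * 3 * 3 := by norm_num
    rw [this]
    exact mul_ne_zero (mul_ne_zero (mul_ne_zero (mul_ne_zero (mul_ne_zero h2 h2) h2) h2) h3) h3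
  have eu2 : u2 = (144 : F)⁻¹ • (-((3 : F) • (c * u1)) - d * N) := by
    rw [← key, smul_smul, inv_mul_cancel₀ h144, one_smul]
  -- stability of the span
  have hsM : ∀ x ∈ Mset Z s u1 N, s * x ∈ Mset Z s u1 N := fun x hx =>
    Mset.lmul hZs Mset.of_s (by rw [r_ss]; exact Mset.smul _ Mset.of_one)
      (by rw [← hN]; exact Mset.of_N) (by rw [r_sN]; exact Mset.smul _ Mset.of_u) hx
  have hu1M : ∀ x ∈ Mset Z s u1 N, u1 * x ∈ Mset Z s u1 N := fun x hx =>
    Mset.lmul hZu1 Mset.of_u (by rw [r_u1s, ← hN]; exact Mset.neg Mset.of_N)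
      (by rw [r_u1u1]; exact Mset.smul _ Mset.of_one)
      (by rw [r_u1N]; exact Mset.smul _ Mset.of_s) hx
  have hNM : ∀ x ∈ Mset Z s u1 N, N * x ∈ Mset Z s u1 N := fun x hx =>
    Mset.lmul hZN Mset.of_N (by rw [r_Ns]; exact Mset.smul _ Mset.of_u)
      (by rw [r_Nu1]; exact Mset.smul _ Mset.of_s)
      (by rw [r_NN]; exact Mset.smul _ Mset.of_one) hx
  have hu2M : ∀ x ∈ Mset Z s u1 N, u2 * x ∈ Mset Z s u1 N := by
    intro x hx
    have : u2 * x = (144 : F)⁻¹ • (-((3 : F) • (c * (u1 * x))) - d * (N * x)) := by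
      conv_lhs => rw [eu2]
      simp only [smul_mul_assoc, sub_mul, neg_mul, mul_assoc]
    rw [this]
    exact Mset.smul _ (Mset.sub (Mset.neg (Mset.smul _ (Mset.zmul hcZ (hu1M x hx))))
      (Mset.zmul hdZ (hNM x hx)))
  have hWM : ∀ x ∈ Mset Z s u1 N, W * x ∈ Mset Z s u1 N := by
    intro x hx
    have : W * x = (2 : F)⁻¹ • (-(x + s * x)) := by
      conv_lhs => rw [eW]
      simp only [smul_mul_assoc, neg_mul, add_mul, one_mul]
    rw [this]
    exact Mset.smul _ (Mset.neg (Mset.add hx (hsM x hx)))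
  have htM : ∀ x ∈ Mset Z s u1 N, t * x ∈ Mset Z s u1 N := by
    intro x hx
    have : t * x = (3 : F)⁻¹ • (u1 * x - ka • (s * x)) := by
      conv_lhs => rw [et]
      simp only [smul_mul_assoc, sub_mul]
    rw [this]
    exact Mset.smul _ (Mset.sub (hu1M x hx) (Mset.smul _ (hsM x hx)))
  have ht'M : ∀ x ∈ Mset Z s u1 N, t' * x ∈ Mset Z s u1 N := by
    intro x hx
    have : t' * x = (3 : F)⁻¹ • (u2 * x - kb • (s * x)) := by
      conv_lhs => rw [et']
      simp only [smul_mul_assoc, sub_mul]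
    rw [this]
    exact Mset.smul _ (Mset.sub (hu2M x hx) (Mset.smul _ (hsM x hx)))
  have hAM : ∀ x ∈ Mset Z s u1 N, A * x ∈ Mset Z s u1 N := by
    intro x hx
    have : A * x = (2 : F)⁻¹ • (-(x + t * x)) := by
      conv_lhs => rw [eA]
      simp only [smul_mul_assoc, neg_mul, add_mul, one_mul]
    rw [this]
    exact Mset.smul _ (Mset.neg (Mset.add hx (htM x hx)))
  have hBM : ∀ x ∈ Mset Z s u1 N, B * x ∈ Mset Z s u1 N := by
    intro x hx
    have : B * x = (2 : F)⁻¹ • (-(x + t' * x)) := by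
      conv_lhs => rw [eB]
      simp only [smul_mul_assoc, neg_mul, add_mul, one_mul]
    rw [this]
    exact Mset.smul _ (Mset.neg (Mset.add hx (ht'M x hx)))
  -- `Z` commutes with `W, A, B`
  have hZt : ∀ z ∈ Z, z * t = t * z := by
    intro z hz
    rw [et]
    simp only [mul_smul_comm, smul_mul_assoc, mul_sub, sub_mul, hZu1 z hz, hZs z hz]
  have hZt' : ∀ z ∈ Z, z * t' = t' * z := by
    intro z hz
    rw [et']
    simp only [mul_smul_comm, smul_mul_assoc, mul_sub, sub_mul, hZu2 z hz, hZs z hz]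
  have hZW : ∀ z ∈ Z, z * W = W * z := by
    intro z hz
    rw [eW]
    simp only [mul_smul_comm, smul_mul_assoc, mul_neg, neg_mul, mul_add, add_mul, mul_one,
      one_mul, hZs z hz]
  have hZA : ∀ z ∈ Z, z * A = A * z := by
    intro z hz
    rw [eA]
    simp only [mul_smul_comm, smul_mul_assoc, mul_neg, neg_mul, mul_add, add_mul, mul_one,
      one_mul, hZt z hz]
  have hZB : ∀ z ∈ Z, z * B = B * z := by
    intro z hz
    rw [eB]
    simp only [mul_smul_comm, smul_mul_assoc, mul_neg, neg_mul, mul_add, add_mul, mul_one,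
      one_mul, hZt' z hz]
  -- the spanning family
  have hWadj : W ∈ Algebra.adjoin F ({W, A, B} : Set R) := Algebra.subset_adjoin (by simp)
  have hAadj : A ∈ Algebra.adjoin F ({W, A, B} : Set R) := Algebra.subset_adjoin (by simp)
  have hsadj : s ∈ Algebra.adjoin F ({W, A, B} : Set R) := by
    rw [hs]
    exact Subalgebra.neg_mem _ (Subalgebra.add_mem _ (Subalgebra.add_mem _ hWadj hWadj)
      (Subalgebra.one_mem _))
  have htadj : t ∈ Algebra.adjoin F ({W, A, B} : Set R) := by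
    rw [ht]
    exact Subalgebra.neg_mem _ (Subalgebra.add_mem _ (Subalgebra.add_mem _ hAadj hAadj)
      (Subalgebra.one_mem _))
  have hu1adj : u1 ∈ Algebra.adjoin F ({W, A, B} : Set R) := by
    rw [hu1]
    exact Subalgebra.add_mem _ (Subalgebra.smul_mem _ htadj _) (Subalgebra.smul_mem _ hsadj _)
  have hNadj : N ∈ Algebra.adjoin F ({W, A, B} : Set R) := by
    rw [hN]; exact Subalgebra.mul_mem _ hsadj hu1adj
  refine ⟨Z, ![1, s, u1, N, 0, 0, 0, 0], hZZ, fun z hz => ⟨hZW z hz, hZA z hz, hZB z hz⟩,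
    ?_, ?_, ?_⟩
  · intro i
    fin_cases i
    · exact Subalgebra.one_mem _
    · exact hsadj
    · exact hu1adj
    · exact hNadj
    · exact Subalgebra.zero_mem _
    · exact Subalgebra.zero_mem _
    · exact Subalgebra.zero_mem _
    · exact Subalgebra.zero_mem _
  · refine ⟨![1, 0, 0, 0, 0, 0, 0, 0], ?_, ?_⟩
    · intro i
      fin_cases i <;> simp [Z.one_mem, Z.zero_mem]
    · simp [Fin.sum_univ_eight]
  · intro T hT j
    have hrj : (![1, s, u1, N, 0, 0, 0, 0] : Fin 8 → R) j ∈ Mset Z s u1 N := by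
      fin_cases j
      · exact Mset.of_one
      · exact Mset.of_s
      · exact Mset.of_u
      · exact Mset.of_N
      · exact Mset.of_zero
      · exact Mset.of_zero
      · exact Mset.of_zero
      · exact Mset.of_zero
    have hTM : T * (![1, s, u1, N, 0, 0, 0, 0] : Fin 8 → R) j ∈ Mset Z s u1 N := by
      rcases hT with rfl | rfl | rfl
      · exact hWM _ hrj
      · exact hAM _ hrj
      · exact hBM _ hrj
    obtain ⟨c0, hc0, c1, hc1, c2, hc2, c3, hc3, e⟩ := hTM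
    refine ⟨![c0, c1, c2, c3, 0, 0, 0, 0], ?_, ?_⟩
    · intro i
      fin_cases i <;> simp [hc0, hc1, hc2, hc3, Z.zero_mem]
    · rw [e]
      simp [Fin.sum_univ_eight]

end core

universe u

/-- **[T1-R]** -/
theorem pkgT1R : Cfsg.Agent.Lib.Helper27.Zass.PkgT1R.{u} := by
  intro p _ R _ _ h2 h3 W A B hW hA hB hka hkb
  exact t1r_core (F := ZMod p) h2 h3 W A B hW hA hB hka hkb

end Cfsg.Agent.Lib.Helper12.Zass
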